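import Cfsg.Prelude.Def_SylowControl
import Cfsg.Prelude.Def_SylowChains
import Cfsg.Agent.Lib.StronglyPEmbedded.Helpers

/-!
Control of Sylow `p`-intersections by a family of subgroups, in relational form.
-/

set_option autoImplicit false
set_option linter.unusedSectionVars false

namespace CfsgLib.StronglyPEmbedded

variable {G : Type*} [Group G] {p : ℕ}

lemma mem_subgroupConjRight_iff {g x : G} {X : Subgroup G} :
    x ∈ Cfsg.subgroupConjRight g X ↔ g * x * g⁻¹ ∈ X := by
  constructor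
  · rintro ⟨y, hy, rfl⟩
    simpa [mul_assoc] using hy
  · exact fun h => ⟨_, h, by simp [mul_assoc]⟩

lemma coe_smul_sylow (g : G) (A : Sylow p G) :
    ((g • A : Sylow p G) : Subgroup G) = (A : Subgroup G).map (MulAut.conj g).toMonoidHom := rfl

lemma mem_smul_sylow {g x : G} {A : Sylow p G} :
    x ∈ ((g • A : Sylow p G) : Subgroup G) ↔ g⁻¹ * x * g ∈ (A : Subgroup G) := by
  rw [coe_smul_sylow]
  constructor
  · rintro ⟨y, hy, rfl⟩
    show g⁻¹ * (g * y * g⁻¹) * g ∈ (A : Subgroup G)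
    rw [show g⁻¹ * (g * y * g⁻¹) * g = y by group]
    exact hy
  · exact fun h => ⟨_, h, by simp [mul_assoc]⟩

lemma coe_inv_smul_sylow (g : G) (A : Sylow p G) :
    ((g⁻¹ • A : Sylow p G) : Subgroup G) = Cfsg.subgroupConjRight g (A : Subgroup G) := rfl

/-- One step of a chain controlling a Sylow intersection `D`. -/
def CtrlStep (p : ℕ) (𝓕 : Set (Subgroup G)) (D : Subgroup G) (A B : Sylow p G) : Prop :=
  ∃ (X : Subgroup G) (x : G), X ∈ Cfsg.sylowMembers p 𝓕 (A : Subgroup G) ∧
    X ∈ Cfsg.sylowMembers p 𝓕 (B : Subgroup G) ∧ x ∈ X ∧ B = x • A ∧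
      D ≤ (B : Subgroup G) ⊓ X

lemma ctrlStep_mono {𝓕 : Set (Subgroup G)} {D D' : Subgroup G} (h : D' ≤ D) {A B : Sylow p G}
    (hs : CtrlStep p 𝓕 D A B) : CtrlStep p 𝓕 D' A B := by
  obtain ⟨X, x, h1, h2, h3, h4, h5⟩ := hs
  exact ⟨X, x, h1, h2, h3, h4, h.trans h5⟩

lemma controls_iff {𝓕 : Set (Subgroup G)} : Cfsg.ControlsSylowIntersections p 𝓕 ↔
    ∀ S T : Sylow p G, S ≠ T → (S : Subgroup G) ⊓ (T : Subgroup G) ≠ ⊥ →
      Relation.ReflTransGen (CtrlStep p 𝓕 ((S : Subgroup G) ⊓ (T : Subgroup G))) S T := by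
  constructor
  · intro h S T hne hbot
    obtain ⟨n, c, X, x, h0, hn, hs⟩ := h S T hne hbot
    suffices ∀ i : Fin (n + 1),
        Relation.ReflTransGen (CtrlStep p 𝓕 ((S : Subgroup G) ⊓ (T : Subgroup G))) S (c i) by
      simpa [hn] using this (Fin.last n)
    intro i
    induction i using Fin.induction with
    | zero => rw [h0]
    | succ i ih =>
      obtain ⟨h1, h2, h3, h4, h5⟩ := hs i
      refine ih.tail ⟨X i, x i, h1, h2, h3, ?_, h5⟩
      have : (x i)⁻¹ • c i.succ = c i.castSucc := Sylow.ext h4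
      rw [← this, smul_inv_smul]
  · intro h S T hne hbot
    have key : ∀ B, Relation.ReflTransGen (CtrlStep p 𝓕 ((S : Subgroup G) ⊓ (T : Subgroup G))) S B →
        ∃ (n : ℕ) (c : Fin (n + 1) → Sylow p G) (X : Fin n → Subgroup G) (x : Fin n → G),
          c 0 = S ∧ c (Fin.last n) = B ∧
          ∀ i : Fin n,
            X i ∈ Cfsg.sylowMembers p 𝓕 (c i.castSucc : Subgroup G) ∧
            X i ∈ Cfsg.sylowMembers p 𝓕 (c i.succ : Subgroup G) ∧
            x i ∈ X i ∧ Cfsg.subgroupConjRight (x i) (c i.succ : Subgroup G) = (c i.castSucc : Subgroup G) ∧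
            (S : Subgroup G) ⊓ (T : Subgroup G) ≤ (c i.succ : Subgroup G) ⊓ X i := by
      intro B hB
      induction hB with
      | refl => exact ⟨0, fun _ => S, Fin.elim0, Fin.elim0, rfl, rfl, fun i => i.elim0⟩
      | @tail A B _ hs ih =>
        obtain ⟨n, c, X, x, h0, hn, hc⟩ := ih
        obtain ⟨Y, y, h1, h2, h3, h4, h5⟩ := hs
        refine ⟨n + 1, Fin.snoc c B, Fin.snoc X Y, Fin.snoc x y, ?_, ?_, fun i => ?_⟩
        · rw [← Fin.castSucc_zero, Fin.snoc_castSucc, h0]
        · rw [Fin.snoc_last]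
        · induction i using Fin.lastCases with
          | last =>
            simp only [Fin.snoc_castSucc, Fin.snoc_last, Fin.succ_last, hn]
            refine ⟨h1, h2, h3, ?_, h5⟩
            rw [← coe_inv_smul_sylow, h4, inv_smul_smul]
          | cast i =>
            simp only [Fin.snoc_castSucc, ← Fin.castSucc_succ]
            exact hc i
    exact key T (h S T hne hbot)

lemma mem_sylowMembers_iff [Finite G] [Fact p.Prime] {𝓕 : Set (Subgroup G)} {A : Sylow p G}
    {X : Subgroup G} : X ∈ Cfsg.sylowMembers p 𝓕 (A : Subgroup G) ↔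
      X ∈ 𝓕 ∧ ¬ p ∣ (A : Subgroup G).relIndex X := by
  constructor
  · rintro ⟨hX, P, hP⟩
    refine ⟨hX, ?_⟩
    rw [← Subgroup.inf_relIndex_right, ← hP, Subgroup.relIndex, Subgroup.subgroupOf,
      Subgroup.comap_map_eq_self_of_injective X.subtype_injective]
    exact P.not_dvd_index
  · rintro ⟨hX, hd⟩
    refine ⟨hX, (A.isPGroup'.comap_subtype (K := X)).toSylow hd, ?_⟩
    exact Subgroup.subgroupOf_map_subtype _ _

lemma sylowMembers_conj [Finite G] [Fact p.Prime] {𝓕 : Set (Subgroup G)}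
    (h𝓕 : Cfsg.IsNormalSet 𝓕) {A : Sylow p G} {X : Subgroup G}
    (h : X ∈ Cfsg.sylowMembers p 𝓕 (A : Subgroup G)) (g : G) :
    X.map (MulAut.conj g).toMonoidHom ∈
      Cfsg.sylowMembers p 𝓕 ((g • A : Sylow p G) : Subgroup G) := by
  rw [mem_sylowMembers_iff] at h ⊢
  refine ⟨?_, ?_⟩
  · have := h𝓕 X h.1 g⁻¹
    rwa [Cfsg.subgroupConjRight, inv_inv] at this
  · rw [coe_smul_sylow, Subgroup.relIndex_map_map_of_injective _ _ (MulAut.conj g).injective]
    exact h.2

/-- If `X` contains some Sylow subgroup of `G` then it contains every Sylow subgroup meeting it in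
one of its own Sylow subgroups. -/
lemma sylow_le_of_not_dvd_relIndex [Finite G] [Fact p.Prime] {A P : Sylow p G} {X : Subgroup G}
    (hP : (P : Subgroup G) ≤ X) (h : ¬ p ∣ (A : Subgroup G).relIndex X) : (A : Subgroup G) ≤ X := by
  set D := (A : Subgroup G) ⊓ X with hD
  have h1 : Nat.card ↥D * D.relIndex X = Nat.card ↥X := by
    have := Subgroup.card_mul_index (D.subgroupOf X)
    rwa [Nat.card_congr (Subgroup.subgroupOfEquivOfLe inf_le_right).toEquiv] at this
  have h2 : Nat.card ↥(A : Subgroup G) ∣ Nat.card ↥D := by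
    rw [hD, Subgroup.inf_relIndex_right] at h1
    have hdvd : Nat.card ↥(A : Subgroup G) ∣ Nat.card ↥D * (A : Subgroup G).relIndex X := by
      rw [h1, A.card_eq_multiplicity, ← P.card_eq_multiplicity]
      exact Subgroup.card_dvd_of_le hP
    refine Nat.Coprime.dvd_of_dvd_mul_right ?_ hdvd
    rw [A.card_eq_multiplicity]
    exact ((Fact.out : p.Prime).coprime_iff_not_dvd.2 h).pow_left _
  exact (Subgroup.eq_of_le_of_card_ge (inf_le_left (b := X))
    (Nat.le_of_dvd Nat.card_pos h2)).ge.trans inf_le_right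

/-- A Sylow subgroup of a subgroup of index prime to `p`, as a Sylow subgroup of the group. -/
noncomputable def upSylow [Finite G] [Fact p.Prime] {M : Subgroup G} (hM : ¬ p ∣ M.index)
    (C : Sylow p ↥M) : Sylow p G :=
  (C.isPGroup'.map M.subtype).toSylow (by
    rw [Subgroup.index_map_subtype]
    exact (Fact.out : p.Prime).not_dvd_mul C.not_dvd_index hM)

lemma coe_upSylow [Finite G] [Fact p.Prime] {M : Subgroup G} (hM : ¬ p ∣ M.index) (C : Sylow p ↥M) :
    ((upSylow hM C : Sylow p G) : Subgroup G) = (C : Subgroup ↥M).map M.subtype :=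
  IsPGroup.toSylow_coe _ _

lemma upSylow_subtype [Finite G] [Fact p.Prime] {M : Subgroup G} (hM : ¬ p ∣ M.index)
    (A : Sylow p G) (hA : (A : Subgroup G) ≤ M) : upSylow hM (A.subtype hA) = A := by
  refine Sylow.ext ?_
  rw [coe_upSylow, Sylow.coe_subtype, Subgroup.map_subgroupOf_eq_of_le hA]

lemma upSylow_smul [Finite G] [Fact p.Prime] {M : Subgroup G} (hM : ¬ p ∣ M.index)
    (x : ↥M) (C : Sylow p ↥M) : upSylow hM (x • C) = (x : G) • upSylow hM C := by
  refine Sylow.ext ?_
  rw [coe_upSylow, coe_smul_sylow, coe_smul_sylow, coe_upSylow, Subgroup.map_map, Subgroup.map_map]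
  rfl

end CfsgLib.StronglyPEmbedded
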